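import Mathlib
import Cfsg.Agent.Classification.PSLTwoEvenSylow
import Cfsg.Agent.FastGrp
import Cfsg.Agent.Prune
set_option linter.all false
prune_inst 0x7f00000000000000000000000000000000000000000000000000000000000000000000000000000000000000000000000000000000000000000000000000000000000000000000000000000000000000003fffffffffffffffffffffffffffbeffbdffffffff
open scoped Cfsg.Agent.FastGrp

/-!
# `PSL(2,F)`, `F` of characteristic two: the normalizer of a Sylow 2-subgroup `S` is transitive on `S ∖ 1`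
-/

set_option autoImplicit false

namespace Cfsg.Agent.H629.PslTwoEven

open Matrix Cfsg.Agent.Classification.PSLTwoEvenSylow

variable {F : Type*} [Field F]

/-- `diag(t, t⁻¹)` -/
def dg (t : F) (ht : t ≠ 0) : SpecialLinearGroup (Fin 2) F :=
  ⟨!![t, 0; 0, t⁻¹], by rw [Matrix.det_fin_two_of, mul_zero, sub_zero, mul_inv_cancel₀ ht]⟩

theorem dg_uni (t : F) (ht : t ≠ 0) (a : F) :
    dg t ht * uni (Multiplicative.ofAdd a) = uni (Multiplicative.ofAdd (t * t * a)) * dg t ht := by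
  apply Subtype.ext
  show (!![t, 0; 0, t⁻¹] : Matrix (Fin 2) (Fin 2) F) * !![1, a; 0, 1] = !![1, t * t * a; 0, 1] * !![t, 0; 0, t⁻¹]
  rw [Matrix.mul_fin_two, Matrix.mul_fin_two]
  ext i j
  fin_cases i <;> fin_cases j <;> simp
  field_simp

/-- the non-trivial unipotent elements are conjugate -/
theorem exists_conj [Finite F] [CharP F 2] {a b : Multiplicative F} (ha : a ≠ 1) (hb : b ≠ 1) :
    ∃ g : ProjectiveSpecialLinearGroup (Fin 2) F, g * uniP a * g⁻¹ = uniP b := by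
  have ha' : Multiplicative.toAdd a ≠ 0 := fun h => ha h
  have hb' : Multiplicative.toAdd b ≠ 0 := fun h => hb h
  obtain ⟨t, ht⟩ : IsSquare (Multiplicative.toAdd b / Multiplicative.toAdd a) := by
    have : ExpChar F 2 := ExpChar.prime Nat.prime_two
    have hp : PerfectRing F 2 := inferInstance
    obtain ⟨t, ht⟩ := hp.bijective_frobenius.2 (Multiplicative.toAdd b / Multiplicative.toAdd a)
    exact ⟨t, by rw [← ht]; exact pow_two t⟩
  have ht0 : t ≠ 0 := by
    rintro rfl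
    rw [mul_zero] at ht
    exact (div_ne_zero hb' ha') ht
  refine ⟨QuotientGroup.mk' _ (dg t ht0), ?_⟩
  have h1 := dg_uni t ht0 (Multiplicative.toAdd a)
  rw [← ht, div_mul_cancel₀ _ ha'] at h1
  have h2 : dg t ht0 * uni a = uni b * dg t ht0 := h1
  have h3 : dg t ht0 * uni a * (dg t ht0)⁻¹ = uni b := by rw [h2, mul_inv_cancel_right]
  have h4 := congrArg (QuotientGroup.mk' (Subgroup.center (SpecialLinearGroup (Fin 2) F))) h3
  rw [map_mul, map_mul, map_inv] at h4
  exact h4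

/-- a Sylow 2-subgroup of a group isomorphic to `PSL(2,F)` is conjugate to the group of unipotent elements -/
theorem exists_eq [Fintype F] [CharP F 2] {G : Type*} [Group G] [Finite G]
    (e : G ≃* ProjectiveSpecialLinearGroup (Fin 2) F) (S : Sylow 2 G) :
    ∃ g : G, ∀ x ∈ (S : Subgroup G), ∃ a : Multiplicative F, g * x * g⁻¹ = e.symm (uniP a) := by
  have : Fact (Nat.Prime 2) := ⟨Nat.prime_two⟩
  let f : Multiplicative F →* G := e.symm.toMonoidHom.comp uniP
  have hf : Function.Injective f := e.symm.injective.comp uniP_injective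
  obtain ⟨n, _, hn⟩ := FiniteField.card F 2
  have hcardU : Nat.card f.range = 2 ^ (n : ℕ) := by
    rw [← Nat.card_congr (MonoidHom.ofInjective hf).toEquiv]
    rw [← hn, ← Nat.card_eq_fintype_card]
    exact Nat.card_congr Multiplicative.toAdd
  have hU : IsPGroup 2 f.range := IsPGroup.of_card hcardU
  obtain ⟨Q, hQ⟩ := hU.exists_le_sylow
  have hcardG : Nat.card G = 2 ^ (n : ℕ) * ((2 ^ (n : ℕ)) ^ 2 - 1) := by
    rw [Nat.card_congr e.toEquiv, card_psl, hn]
  have hQcard : Nat.card Q = 2 ^ (n : ℕ) := by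
    obtain ⟨m, hm⟩ := IsPGroup.iff_card.mp Q.isPGroup'
    have h1 : 2 ^ m ∣ 2 ^ (n : ℕ) * ((2 ^ (n : ℕ)) ^ 2 - 1) := by
      rw [← hm, ← hcardG]; exact Subgroup.card_subgroup_dvd_card _
    have h2 : Nat.Coprime (2 ^ m) ((2 ^ (n : ℕ)) ^ 2 - 1) := by
      apply Nat.Coprime.pow_left
      rw [Nat.Prime.coprime_iff_not_dvd Nat.prime_two]
      have h2 : 2 ∣ (2 ^ (n : ℕ)) ^ 2 := by
        rw [← pow_mul]; exact dvd_pow_self 2 (by have := n.pos; positivity)
      have h3 : 1 ≤ (2 ^ (n : ℕ)) ^ 2 := Nat.one_le_iff_ne_zero.mpr (by positivity)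
      omega
    have h3 := h2.dvd_of_dvd_mul_right h1
    have h4 : 2 ^ (n : ℕ) ∣ 2 ^ m := by
      rw [← hm, ← hcardU]; exact Subgroup.card_dvd_of_le hQ
    rw [hm]; exact Nat.dvd_antisymm h3 h4
  have hEq : f.range = (Q : Subgroup G) :=
    Subgroup.eq_of_le_of_card_ge hQ (by rw [hcardU]; exact hQcard.le)
  obtain ⟨g, hg⟩ := MulAction.exists_smul_eq G S Q
  refine ⟨g, fun x hx => ?_⟩
  have h5 : g * x * g⁻¹ ∈ (Q : Subgroup G) := by
    rw [← hg]
    exact ⟨x, hx, rfl⟩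
  rw [← hEq] at h5
  obtain ⟨a, ha⟩ := h5
  exact ⟨a, ha.symm⟩

theorem exists_normalizer_conj [Fintype F] [CharP F 2] {G : Type*} [Group G] [Finite G]
    (e : G ≃* ProjectiveSpecialLinearGroup (Fin 2) F) (S : Sylow 2 G) {r s : G} (hr : r ∈ (S : Subgroup G))
    (hs : s ∈ (S : Subgroup G)) (hr1 : r ≠ 1) (hs1 : s ≠ 1) :
    ∃ n ∈ Subgroup.normalizer (S : Set G), n * r * n⁻¹ = s := by
  have : Fact (Nat.Prime 2) := ⟨Nat.prime_two⟩
  obtain ⟨g, hg⟩ := exists_eq e S
  obtain ⟨a, ha⟩ := hg r hr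
  obtain ⟨b, hb⟩ := hg s hs
  have ha1 : a ≠ 1 := by
    rintro rfl
    rw [map_one, map_one, mul_inv_eq_one, mul_eq_left] at ha
    exact hr1 ha
  have hb1 : b ≠ 1 := by
    rintro rfl
    rw [map_one, map_one, mul_inv_eq_one, mul_eq_left] at hb
    exact hs1 hb
  obtain ⟨c, hc⟩ := exists_conj ha1 hb1
  have h1 : (e.symm c) * (g * r * g⁻¹) * (e.symm c)⁻¹ = g * s * g⁻¹ := by
    rw [ha, hb, ← hc, map_mul, map_mul, map_inv]
  have h2 : (g⁻¹ * e.symm c * g) * r * (g⁻¹ * e.symm c * g)⁻¹ = s := by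
    calc (g⁻¹ * e.symm c * g) * r * (g⁻¹ * e.symm c * g)⁻¹
        = g⁻¹ * ((e.symm c) * (g * r * g⁻¹) * (e.symm c)⁻¹) * g := by group
      _ = g⁻¹ * (g * s * g⁻¹) * g := by rw [h1]
      _ = s := by group
  have hcomm := sylow_comm e S
  have h3 := Sylow.conj_eq_normalizer_conj_of_mem S r (g⁻¹ * e.symm c * g)⁻¹ hr (by
    rw [inv_inv, h2]; exact hs)
  obtain ⟨n, hn, h4⟩ := h3
  rw [inv_inv, h2] at h4
  exact ⟨n⁻¹, inv_mem hn, by rw [inv_inv]; exact h4.symm⟩

end Cfsg.Agent.H629.PslTwoEven
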